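import Cfsg.Agent.H465.PiBSEnd
import Cfsg.Agent.H171.AltGoal
import Cfsg.Agent.S2534
import Cfsg.Agent.S2535

/-!
# S3876 (π-Baer–Suzuki in `D_π`-groups): the alternating groups (helper465)
-/

set_option autoImplicit false

namespace Cfsg.Agent.H469.PiBS

open Cfsg Subgroup

/-- **The alternating rows.** -/
theorem row_alt {π : Set ℕ} (h2 : 2 ∈ π) {n : ℕ} (hn : 5 ≤ n) : Row π (alternatingGroup (Fin n)) := by
  intro A x l h
  have hs : IsSimpleGroup (alternatingGroup (Fin n)) := alternatingGroup.isSimpleGroup (by simpa using hn)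
  have hZ := Cfsg.Agent.H171.AltGoal.center_alt hn
  -- `A_n` is a `D_π`-group
  have hC : IsCPiGroup π (alternatingGroup (Fin n)) := (Cfsg.Agent.S2535.result n π).2.2.1 h.exists_hall
  have hmax : ∀ H : Subgroup (alternatingGroup (Fin n)), Maximal (IsPiSubgroup π) H → IsPiHall π H := by
    intro H hH
    obtain ⟨K, hK, hHK⟩ := h.dom H hH.1
    rwa [hH.eq_of_le hK.1 hHK]
  have hD : IsDPiGroup π (alternatingGroup (Fin n)) := fun H K hH hK => hC.2 H K (hmax H hH) (hmax K hK)
  rcases (Cfsg.Agent.S2534.result n hn π).1 hD with h1 | h1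
  · exfalso
    have h2d : 2 ∣ Nat.card (alternatingGroup (Fin n)) := by
      have h3 := Cfsg.Agent.H171.AltGoal.two_mul_card (n := n) (by omega)
      have h4 : 2 ^ 2 ∣ n.factorial := by
        refine Dvd.dvd.trans ?_ (Nat.factorial_dvd_factorial (show 4 ≤ n by omega))
        decide
      rw [← h3, pow_two] at h4
      exact Nat.dvd_of_mul_dvd_mul_left (by norm_num) h4
    have hna : ¬ IsMulCommutative (alternatingGroup (Fin n)) := by
      intro hc
      have h3 : (⊤ : Subgroup (alternatingGroup (Fin n))) ≤ center (alternatingGroup (Fin n)) := by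
        intro a _
        rw [mem_center_iff]
        exact fun b => hc.is_comm.comm b a
      rw [hZ, top_le_iff] at h3
      exact bot_ne_top h3
    have hu : ∀ p : ℕ, p.Prime → p ∈ π → p ∣ Nat.card (MulAut (alternatingGroup (Fin n))) → p = 2 := by
      intro p hp hpi hd
      rw [← Cfsg.Agent.H171.AltGoal.card_out_mul hZ] at hd
      rcases hp.dvd_mul.1 hd with h3 | h3
      · exact h1 p 2 hp Nat.prime_two hpi h2 h3 h2d
      · exact Cfsg.Agent.H171.AltGoal.prime_out hn hp h3
    have hl : l = 2 := hu l h.prime h.lpi (by rw [← h.ord]; exact orderOf_dvd_natCard x)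
    exact h.false_of_unique hna fun p hp hpi hd => (hu p hp hpi hd).trans hl.symm
  · exact fun p hp hd => h1 p hp hd

end Cfsg.Agent.H469.PiBS
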